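import Mathlib
import Cfsg.Agent.Lib.SL2.MaxExist

/-! Maximal `A₄`, `S₄`, `A₅`. -/

set_option autoImplicit false
set_option linter.style.haveILetI false

namespace CfsgLib.SL2Dickson

open Matrix CfsgLib.SL2Torus
open CfsgLib.PSL2Klein (π π_surj π_eq π_eq_one)
open Classical

variable {F : Type*} [Field F] [Fintype F]

local notation "L" => Matrix.SpecialLinearGroup (Fin 2) F
local notation "PL" => Matrix.ProjectiveSpecialLinearGroup (Fin 2) F

theorem no_field_of_prime (hp : (Fintype.card F).Prime) {M : Subgroup PL} (hM : IsCoatom M) : ¬ FieldCase M := by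
  intro h
  obtain ⟨θ, K, m, hK, hm, -⟩ := field_max hM h
  rw [← hm] at hp
  rw [Nat.Prime.eq_one_of_pow hp, pow_one] at hm
  exact hK (subfield_eq_top hm)

theorem card_PL_ge (hodd : Fintype.card F % 2 = 1) (h5 : 5 ≤ Fintype.card F) : 60 ≤ Nat.card PL := by
  have hg := gcd_mul_card F
  rw [gcd_odd hodd] at hg
  have h25 : 25 ≤ Fintype.card F ^ 2 := Nat.pow_le_pow_left h5 2
  have := Nat.mul_le_mul h5 (show 24 ≤ Fintype.card F ^ 2 - 1 by omega)
  omega

/-- the Klein normaliser over a prime field -/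
theorem isCoatom_klein_normalizer (hp : (Fintype.card F).Prime) (h5 : 5 ≤ Fintype.card F)
    (hcase : (Fintype.card F % 8 = 1 ∨ Fintype.card F % 8 = 7) ∨ ¬ (Fintype.card F % 10 = 1 ∨ Fintype.card F % 10 = 9)) :
    ∃ X : Subgroup PL, IsCoatom X ∧
      ((Fintype.card F % 8 = 1 ∨ Fintype.card F % 8 = 7) → Nonempty (X ≃* Equiv.Perm (Fin 4))) ∧
      ((Fintype.card F % 8 = 3 ∨ Fintype.card F % 8 = 5) → Nonempty (X ≃* alternatingGroup (Fin 4))) := by
  have hodd : Fintype.card F % 2 = 1 := hp.eq_two_or_odd.resolve_left (by omega)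
  have hK := (CfsgLib.PSL2Klein.four_isKlein hodd (r := 1) (one_mem _)).1
  set V := CfsgLib.PSL2Klein.four hodd (1 : L)
  obtain ⟨⟨φ, hφ⟩, -⟩ := CfsgLib.PSL2Klein.normalizer_four hodd (r := 1) (one_mem _)
  refine ⟨Subgroup.normalizer (V : Set PL), ?_, fun h => ?_, fun h => ?_⟩
  · have hXc := klein_card hodd hK
    have hne : Subgroup.normalizer (V : Set PL) ≠ ⊤ := by
      intro e
      rw [e, Subgroup.card_top] at hXc
      have := card_PL_ge hodd h5
      omega
    obtain ⟨M, hM, hle⟩ := exists_coatom_ge hne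
    have hcM := exceptional_card (M := M)
    have hd := Subgroup.card_dvd_of_le hle
    suffices h : Nat.card M ≤ Nat.card (Subgroup.normalizer (V : Set PL)) by
      rw [Subgroup.eq_of_le_of_card_ge hle h]; exact hM
    rcases cycle_cases hodd (by omega) hM ((hasCycle_klein hodd hK).mono hle) with h | h | h | h
    · rw [hcM.1 h]; omega
    · obtain ⟨hq, h8⟩ := S4_max hodd hM h
      rw [← hq] at h8
      rw [hcM.2.1 h]; omega
    · obtain ⟨h10, -⟩ := A5_max hodd hM h
      rw [hcM.2.2 h] at hd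
      rcases hXc with ⟨h8, e⟩ | ⟨h8, e⟩ <;> rw [e] at hd
      · omega
      · norm_num at hd
    · exact absurd h (no_field_of_prime hp hM)
  · rcases klein_card hodd hK with ⟨h', -⟩ | ⟨-, h24⟩
    · omega
    · exact CfsgLib.KleinNormalizer.exists_S4 h24 φ hφ
  · rcases klein_card hodd hK with ⟨-, h12⟩ | ⟨h', -⟩
    · have hidx := Subgroup.card_mul_index φ.range
      rw [← Nat.card_congr (MonoidHom.ofInjective hφ).toEquiv, Nat.card_perm, Nat.card_fin,
        show Nat.factorial 4 = 24 from rfl, h12] at hidx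
      exact ⟨(MonoidHom.ofInjective hφ).trans (MulEquiv.subgroupCongr
        (Equiv.Perm.eq_alternatingGroup_of_index_eq_two (show φ.range.index = 2 by omega)))⟩
    · omega

theorem isCoatom_A5 (hodd : Fintype.card F % 2 = 1) {p : ℕ} (hp : p.Prime)
    (hcase : (Fintype.card F = p ∧ (p % 10 = 1 ∨ p % 10 = 9)) ∨
      (Fintype.card F = p ^ 2 ∧ (p % 10 = 3 ∨ p % 10 = 7))) :
    ∃ X : Subgroup PL, IsCoatom X ∧ Nonempty (X ≃* alternatingGroup (Fin 5)) := by
  have h2 := hp.two_le
  have h59 : 9 ≤ Fintype.card F ∧ 5 ∣ Fintype.card F * (Fintype.card F ^ 2 - 1) := by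
    refine ⟨?_, dvd_mul_of_dvd_right ?_ _⟩
    · rcases hcase with ⟨e, h⟩ | ⟨e, h⟩
      · omega
      · rw [e]; exact Nat.pow_le_pow_left (show 3 ≤ p by omega) 2
    · have h1 : Fintype.card F ^ 2 % 5 = 1 := by
        rcases hcase with ⟨e, h⟩ | ⟨e, h⟩
        · rw [e, Nat.pow_mod]
          rcases h with h | h
          · rw [show p % 5 = 1 by omega]
          · rw [show p % 5 = 4 by omega]
        · rw [e, ← pow_mul, Nat.pow_mod]
          rcases h with h | h
          · rw [show p % 5 = 3 by omega]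
          · rw [show p % 5 = 2 by omega]
      omega
  obtain ⟨h9, h5q⟩ := h59
  obtain ⟨X, ⟨e⟩⟩ := (Cfsg.Agent.S0804.result rfl).2 h5q
  refine ⟨X, ?_, ⟨e⟩⟩
  have hX60 : Nat.card X = 60 := by rw [Nat.card_congr e.toEquiv, nat_card_alternatingGroup, Nat.card_fin]; rfl
  have hne : X ≠ ⊤ := by
    intro h
    rw [h, Subgroup.card_top] at hX60
    have hg := gcd_mul_card F
    rw [gcd_odd hodd, hX60] at hg
    have h81 : 81 ≤ Fintype.card F ^ 2 := Nat.pow_le_pow_left h9 2
    have := Nat.mul_le_mul h9 (show 80 ≤ Fintype.card F ^ 2 - 1 by omega)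
    omega
  obtain ⟨M, hM, hle⟩ := exists_coatom_ge hne
  have hcM := exceptional_card (M := M)
  have hd := Subgroup.card_dvd_of_le hle
  rw [hX60] at hd
  suffices h : Nat.card M ≤ Nat.card X by rw [Subgroup.eq_of_le_of_card_ge hle h]; exact hM
  rcases cycle_cases hodd (by omega) hM ((hasCycle_A5 ⟨e⟩).mono hle) with h | h | h | h
  · rw [hcM.1 h] at hd; norm_num at hd
  · rw [hcM.2.1 h] at hd; norm_num at hd
  · rw [hcM.2.2 h, hX60]
  · exfalso
    rcases hcase with ⟨e', -⟩ | ⟨e', h10⟩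
    · exact no_field_of_prime (e' ▸ hp) hM h
    obtain ⟨θ, K, m, hK, hm, hcases⟩ := field_max hM h
    obtain ⟨k, hk, hkm⟩ : ∃ k, k ≤ 2 ∧ Nat.card K = p ^ k :=
      (Nat.dvd_prime_pow hp).1 (e' ▸ hm ▸ dvd_pow_self _ (by
        rintro rfl
        rw [pow_zero] at hm
        omega))
    rw [hkm, ← pow_mul] at hm
    have hkm2 : k * m = 2 := Nat.pow_right_injective h2 (hm.trans e')
    rcases hcases with ⟨-, rfl, hθ, hcard⟩ | ⟨hmp, hmo, -⟩
    · rw [show Nat.card M = Nat.card (pglSub K) by rw [← hθ, Subgroup.card_map_of_injective θ.injective], hcard, hkm,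
        show k = 1 by omega, pow_one] at hd
      rcases (Nat.Prime.dvd_mul (by norm_num : Nat.Prime 5)).1 ((show 5 ∣ 60 by norm_num).trans hd) with h5 | h5
      · omega
      · have hp2 : p ^ 2 % 5 = 4 := by
          rw [Nat.pow_mod]
          rcases h10 with h | h
          · rw [show p % 5 = 3 by omega]
          · rw [show p % 5 = 2 by omega]
        omega
    · have := (Nat.prime_dvd_prime_iff_eq hmp Nat.prime_two).1 ⟨k, by rw [← hkm2, mul_comm]⟩
      subst this
      exact absurd (hmo hodd) (by decide)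

end CfsgLib.SL2Dickson
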