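import Mathlib
import Cfsg.Agent.Lib.SL2.MaxField

/-! Maximality of the normalisers of tori. -/

set_option autoImplicit false
set_option linter.style.haveILetI false

namespace CfsgLib.SL2Dickson

open Matrix CfsgLib.SL2Torus
open CfsgLib.PSL2Klein (π π_surj π_eq π_eq_one)
open Classical

variable {F : Type*} [Field F] [Fintype F]

local notation "L" => Matrix.SpecialLinearGroup (Fin 2) F
local notation "PL" => Matrix.ProjectiveSpecialLinearGroup (Fin 2) F

theorem psl_order_bound {K : Subfield F} {x : PL} (hx : x ∈ pslSub K) (hp : ¬ ringChar F ∣ orderOf x) :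
    Nat.gcd 2 (Nat.card K - 1) * orderOf x ≤ Nat.card K + 1 := by
  haveI := ringChar.charP F
  haveI : CharP K (ringChar F) := (RingHom.charP_iff K.subtype K.subtype.injective _).2 inferInstance
  have hc : ringChar K = ringChar F := ringChar.eq K (ringChar F)
  obtain ⟨e⟩ := pslSub_equiv (RingEquiv.refl K)
  have ho : orderOf (e ⟨x, hx⟩) = orderOf x := by rw [MulEquiv.orderOf_eq, Subgroup.orderOf_mk]
  have := order_bound (F := K) (x := e ⟨x, hx⟩) (by rw [ho, hc]; exact hp)
  rw [ho, ← Nat.card_eq_fintype_card] at this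
  exact this

/-- element orders in a maximal subfield subgroup -/
theorem field_order {M : Subgroup PL} (hM : IsCoatom M) (h : FieldCase M) {x : PL} (hx : x ∈ M)
    (hp : ¬ ringChar F ∣ orderOf x) :
    ∃ r : ℕ, 2 ≤ r ∧ r ^ 2 ≤ Fintype.card F ∧ r % 2 = Fintype.card F % 2 ∧ orderOf x ≤ r + 1 ∧
      (r = 2 → Nat.card M = 6) := by
  obtain ⟨θ, K, m, hK, hm, hcases⟩ := field_max hM h
  have hm2 : 2 ≤ m := by rcases hcases with ⟨-, rfl, -, -⟩ | ⟨hmp, -, -⟩ <;> [exact le_rfl; exact hmp.two_le]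
  have hr := subfield_two_le K
  refine ⟨Nat.card K, hr, hm ▸ Nat.pow_le_pow_right (by omega) hm2, parity_eq (by omega) hm, ?_, ?_⟩
  · have ho : orderOf (θ x) = orderOf x := MulEquiv.orderOf_eq θ x
    rcases hcases with ⟨hodd, rfl, hθ, hcard⟩ | ⟨-, -, hθ⟩
    · have hmem : θ x ∈ pglSub K := hθ ▸ ⟨x, hx, rfl⟩
      have hidx : ((pslSub K).subgroupOf (pglSub K)).index = 2 := by
        have h1 := Subgroup.card_mul_index ((pslSub K).subgroupOf (pglSub K))
        rw [Nat.card_congr (Subgroup.subgroupOfEquivOfLe (pslSub_le_pglSub K)).toEquiv, hcard] at h1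
        have h2 := card_pslSub K
        rw [(gcd_sub_one (by omega)).1 (by rw [parity_eq two_ne_zero hm, hodd]), ← h1, mul_comm 2] at h2
        exact (Nat.eq_of_mul_eq_mul_left Nat.card_pos h2).symm
      have hsq : θ x ^ 2 ∈ pslSub K := by
        have := Subgroup.mul_self_mem_of_index_two hidx (⟨θ x, hmem⟩ : pglSub K)
        rw [Subgroup.mem_subgroupOf] at this
        simpa [sq] using this
      have hd : orderOf (θ x ^ 2) ∣ orderOf x := ho ▸ orderOf_pow_dvd 2
      have hb := psl_order_bound hsq (fun h => hp (h.trans hd))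
      rw [(gcd_sub_one (by omega)).1 (by rw [parity_eq two_ne_zero hm, hodd])] at hb
      have h2 : θ x ^ (2 * orderOf (θ x ^ 2)) = 1 := by rw [pow_mul, pow_orderOf_eq_one]
      have := Nat.le_of_dvd (by have := orderOf_pos (θ x ^ 2); omega) (orderOf_dvd_of_pow_eq_one h2)
      omega
    · have hb := psl_order_bound (hθ ▸ ⟨x, hx, rfl⟩ : θ x ∈ pslSub K) (ho ▸ hp)
      rw [ho] at hb
      have hd : 0 < Nat.gcd 2 (Nat.card K - 1) := Nat.gcd_pos_of_pos_left _ two_pos
      have := Nat.le_mul_of_pos_left (orderOf x) hd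
      omega
  · intro e2
    rcases hcases with ⟨hodd, rfl, -, -⟩ | ⟨-, -, hθ⟩
    · have := parity_eq two_ne_zero hm
      omega
    · rw [← Subgroup.card_map_of_injective (K := M) (f := θ.toMonoidHom) θ.injective]
      show Nat.card (M.map θ.toMonoidHom) = 6
      rw [hθ]
      have := card_pslSub K
      rw [e2] at this
      rwa [show Nat.gcd 2 (2 - 1) = 1 by decide, one_mul, show 2 * (2 ^ 2 - 1) = 6 by decide] at this

theorem orders_small :
    (∀ a : alternatingGroup (Fin 4), a ^ 2 = 1 ∨ a ^ 3 = 1) ∧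
    (∀ a b : alternatingGroup (Fin 4), a ^ 3 = 1 → a ≠ 1 → b * a * b⁻¹ ≠ a⁻¹) ∧
    (∀ a : Equiv.Perm (Fin 4), a ^ 3 = 1 ∨ a ^ 4 = 1) ∧
    (∀ a : alternatingGroup (Fin 5), a ^ 2 = 1 ∨ a ^ 3 = 1 ∨ a ^ 5 = 1) := by
  refine ⟨?_, ?_, ?_, ?_⟩ <;> decide +kernel

/-- the normaliser of a torus of order at least three is maximal, with the small exceptions -/
theorem isCoatom_torus_normalizer (h4 : 4 ≤ Fintype.card F) {T : Subgroup PL} (hT : IsTorus T) (h3 : 3 ≤ Nat.card T)
    (hS4 : Fintype.card F % 2 = 1 → (Fintype.card F % 8 = 1 ∨ Fintype.card F % 8 = 7) → 5 ≤ Nat.card T)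
    (hA5 : Fintype.card F % 2 = 1 → (Fintype.card F % 10 = 1 ∨ Fintype.card F % 10 = 9) → 6 ≤ Nat.card T)
    (hF : ∀ r, 2 ≤ r → r ^ 2 ≤ Fintype.card F → r % 2 = Fintype.card F % 2 → Nat.card T ≤ r + 1 →
      r = 2 ∧ Nat.card T = 3) :
    IsCoatom (Subgroup.normalizer (T : Set PL)) := by
  obtain ⟨M, hM, hle⟩ := exists_coatom_ge (torus_normalizer_ne_top h4 hT)
  have hcX := torus_normalizer_card hT
  haveI := torus_cyclic hT
  obtain ⟨t₀, ht₀⟩ := IsCyclic.exists_generator (α := T)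
  set t : PL := (t₀ : PL)
  have hot : orderOf t = Nat.card T := by rw [Subgroup.orderOf_coe]; exact orderOf_eq_card_of_forall_mem_zpowers ht₀
  have ht : t ∈ T := t₀.2
  have ht1 : t ≠ 1 := fun e => by rw [e, orderOf_one] at hot; omega
  obtain ⟨s, hsN, hsT⟩ : ∃ s, s ∈ Subgroup.normalizer (T : Set PL) ∧ s ∉ T := by
    by_contra h
    push Not at h
    have := Subgroup.card_le_of_le (show Subgroup.normalizer (T : Set PL) ≤ T from h)
    rw [hcX] at this
    omega
  obtain ⟨-, hinv⟩ := torus_outside hT hsN hsT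
  have htM : t ∈ M := hle (Subgroup.le_normalizer ht)
  suffices h : Nat.card M ≤ Nat.card (Subgroup.normalizer (T : Set PL) : Subgroup PL) by rw [Subgroup.eq_of_le_of_card_ge hle h]; exact hM
  haveI := ringChar.charP F
  obtain ⟨n, hp, hq⟩ := FiniteField.card F (ringChar F)
  haveI := Fact.mk hp
  have hcop : ¬ ringChar F ∣ Nat.card T := torus_coprime (ringChar F) hT
  have transfer : ∀ {G : Type} [Group G] (e : M ≃* G), ∃ a b : G, orderOf a = Nat.card T ∧ b * a * b⁻¹ = a⁻¹ := by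
    intro G _ e
    refine ⟨e ⟨t, htM⟩, e ⟨s, hle hsN⟩, by rw [MulEquiv.orderOf_eq, Subgroup.orderOf_mk, hot], ?_⟩
    rw [← map_inv, ← map_mul, ← map_mul, ← map_inv]
    exact congrArg e (Subtype.ext (hinv t ht))
  rcases dickson M with h | h | h | h | h | h | h
  · exact absurd h (not_cyc h4 hM)
  · obtain ⟨T', hT', rfl⟩ := dih_max h4 hM h
    by_cases htT' : t ∈ T'
    · rw [torus_eq hT hT' ht htT' ht1]
    · have h2 := (torus_outside hT' htM htT').1
      have := Nat.le_of_dvd two_pos (hot ▸ orderOf_dvd_of_pow_eq_one (sq t ▸ h2))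
      omega
  · exfalso
    obtain ⟨⟨e⟩, -⟩ := h
    obtain ⟨a, b, ha, hb⟩ := transfer e
    obtain ⟨h1, h2, -, -⟩ := orders_small
    rcases h1 a with e | e
    · have := Nat.le_of_dvd two_pos (ha ▸ orderOf_dvd_of_pow_eq_one e); omega
    · exact h2 a b e (fun e' => by rw [e', orderOf_one] at ha; omega) hb
  · exfalso
    rcases Nat.mod_two_eq_zero_or_one (Fintype.card F) with he | ho
    · exact (no_exceptional he).2.1 h
    obtain ⟨hqp, h8⟩ := S4_max ho hM h
    rw [← hqp] at h8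
    have := hS4 ho h8
    obtain ⟨⟨e⟩, -⟩ := h
    obtain ⟨a, b, ha, -⟩ := transfer e
    rcases orders_small.2.2.1 a with e | e
    · have := Nat.le_of_dvd (by norm_num) (ha ▸ orderOf_dvd_of_pow_eq_one e); omega
    · have := Nat.le_of_dvd (by norm_num) (ha ▸ orderOf_dvd_of_pow_eq_one e); omega
  · exfalso
    rcases Nat.mod_two_eq_zero_or_one (Fintype.card F) with he | ho
    · exact (no_exceptional he).2.2 h
    have := hA5 ho (A5_max ho hM h).1
    obtain ⟨⟨e⟩, -⟩ := h
    obtain ⟨a, b, ha, -⟩ := transfer e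
    rcases orders_small.2.2.2 a with e | e | e <;>
    · have := Nat.le_of_dvd (by norm_num) (ha ▸ orderOf_dvd_of_pow_eq_one e); omega
  · exfalso
    obtain ⟨z, hz, -⟩ := h
    have h1 := unip_pow (commutator_mem_U (hz (hle hsN)) (hz htM))
    rw [hinv t ht, ← sq] at h1
    simp only [inv_pow, inv_eq_one, ← pow_mul] at h1
    have hd := hot ▸ orderOf_dvd_of_pow_eq_one h1
    have := Nat.le_of_dvd two_pos ((((Nat.Prime.coprime_iff_not_dvd hp).2 hcop).symm).dvd_of_dvd_mul_right hd)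
    omega
  · obtain ⟨r, hr, hrq, hpar, hle', h6⟩ := field_order hM h htM (hot ▸ hcop)
    obtain ⟨hr2, hT3⟩ := hF r hr hrq hpar (hot ▸ hle')
    rw [h6 hr2, hcX, hT3]

end CfsgLib.SL2Dickson
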