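import Mathlib
import Cfsg.Agent.Lib.SL2.MaxPrime
import Cfsg.Agent.Lib.SL2.MaxTorus
import Cfsg.Agent.Lib.SL2.Small

/-! `PSL₂` inside `PGL₂`. -/

set_option autoImplicit false
set_option linter.style.haveILetI false

namespace CfsgLib.SL2Dickson

open Matrix CfsgLib.SL2Torus
open CfsgLib.PSL2Klein (π π_surj π_eq π_eq_one)
open Classical

variable {F : Type*} [Field F] [Fintype F]

local notation "L" => Matrix.SpecialLinearGroup (Fin 2) F
local notation "PL" => Matrix.ProjectiveSpecialLinearGroup (Fin 2) F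
local notation "PG" => Matrix.ProjGenLinGroup (Fin 2) F
local notation "M2" => Matrix (Fin 2) (Fin 2) F

/-- the inclusion of `PSL₂` in `PGL₂` -/
def inc : PL →* PG := Matrix.ProjectiveSpecialLinearGroup.toPGL

theorem inc_π (g : L) : inc (π g) = Matrix.ProjGenLinGroup.mk (Matrix.SpecialLinearGroup.toGL g) := rfl

theorem inc_injective : Function.Injective (inc (F := F)) := Matrix.ProjectiveSpecialLinearGroup.toPGL_injective

theorem inc_range :
    (inc (F := F)).range = (Matrix.ProjGenLinGroup.mk.comp Matrix.SpecialLinearGroup.toGL).range := by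
  ext x
  constructor
  · rintro ⟨y, rfl⟩
    obtain ⟨g, rfl⟩ := π_surj y
    exact ⟨g, rfl⟩
  · rintro ⟨g, rfl⟩
    exact ⟨π g, rfl⟩

theorem conj_inc (P : GL (Fin 2) F) (x : PL) :
    Matrix.ProjGenLinGroup.mk P * inc x * (Matrix.ProjGenLinGroup.mk P)⁻¹ = inc (glConj P x) := by
  obtain ⟨g, rfl⟩ := π_surj x
  rw [glConj_π, inc_π, inc_π, ← map_inv, ← map_mul, ← map_mul]
  refine congrArg _ (Units.ext ?_)
  rw [Units.val_mul, Units.val_mul]
  exact (glFun_coe P g).symm

theorem exists_conj (m : PG) : ∃ θ : PL ≃* PL, ∀ x, m * inc x * m⁻¹ = inc (θ x) := by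
  obtain ⟨P, rfl⟩ := Matrix.ProjGenLinGroup.mk_surjective m
  exact ⟨glConj P, conj_inc P⟩

theorem inc_range_normal : ((inc (F := F)).range).Normal := by
  refine ⟨?_⟩
  rintro _ ⟨x, rfl⟩ m
  obtain ⟨θ, h⟩ := exists_conj m
  exact ⟨θ x, (h x).symm⟩

theorem card_PG : Nat.card PG = Fintype.card F * (Fintype.card F ^ 2 - 1) := by
  rw [CfsgLib.Linear.Card.card_PGL, card_L_eq]

theorem index_inc_range : (inc (F := F)).range.index = Nat.gcd 2 (Fintype.card F - 1) := by
  have h := Subgroup.card_mul_index (inc (F := F)).range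
  rw [← Nat.card_congr (MonoidHom.ofInjective inc_injective).toEquiv, card_PG, ← gcd_mul_card F, mul_comm (Nat.gcd _ _)] at h
  exact Nat.eq_of_mul_eq_mul_left Nat.card_pos h

theorem finite_PG : Finite PG := Finite.of_surjective _ Matrix.ProjGenLinGroup.mk_surjective

/-- an automorphism of `PGL₂` over an automorphism of `PSL₂` -/
def Lifts (θ : PL ≃* PL) (Θ : PG ≃* PG) : Prop := ∀ x, Θ (inc x) = inc (θ x)

theorem lift_glConj (g : PL) (P : GL (Fin 2) F) :
    Lifts ((MulAut.conj g).trans (glConj P)) (MulAut.conj (Matrix.ProjGenLinGroup.mk P * inc g)) := by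
  intro x
  show _ = inc (glConj P (g * x * g⁻¹))
  show (Matrix.ProjGenLinGroup.mk P * inc g) * inc x * (Matrix.ProjGenLinGroup.mk P * inc g)⁻¹ = _
  rw [← conj_inc, map_mul inc (g * x), map_mul inc g x, map_inv inc]
  group

theorem scale_eq_glConj (c : Fˣ) : ∃ P : GL (Fin 2) F, ∀ x : PL, scale c x = glConj P x := by
  refine ⟨Matrix.GeneralLinearGroup.mkOfDetNeZero !![(c : F), 0; 0, 1] (by simp [Matrix.det_fin_two]), fun x => ?_⟩
  obtain ⟨g, rfl⟩ := π_surj x
  rw [scale_π]
  refine (glConj_π_eq _ ?_).symm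
  show !![(c : F), 0; 0, 1] * g.1 = (scaleFun c g).1 * !![(c : F), 0; 0, 1]
  have hc : (c : F) * ((c⁻¹ : Fˣ) : F) = 1 := c.mul_inv
  ext i j
  fin_cases i <;> fin_cases j <;>
    simp [Matrix.mul_apply, Fin.sum_univ_two, scaleFun00, scaleFun01, scaleFun10, scaleFun11, mul_comm]

theorem lift_scale (z : PL) (c : Fˣ) :
    ∃ Θ : PG ≃* PG, Lifts ((MulAut.conj z).trans (scale c)) Θ := by
  obtain ⟨P, hP⟩ := scale_eq_glConj c
  exact ⟨_, fun x => by rw [lift_glConj z P x]; exact congrArg inc (hP _).symm⟩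

/-- `M` is maximal in `PGL₂` and does not contain `PSL₂` -/
def Outer (M : Subgroup PG) : Prop := IsCoatom M ∧ ¬ (inc (F := F)).range ≤ M

variable {M : Subgroup (Matrix.ProjGenLinGroup (Fin 2) F)}

theorem Outer.sup (hM : Outer M) : M ⊔ (inc (F := F)).range = ⊤ :=
  hM.1.2 _ (lt_of_le_of_ne le_sup_left fun e => hM.2 (e.symm ▸ le_sup_right))

theorem Outer.comap_ne_top (hM : Outer M) : M.comap inc ≠ ⊤ := fun e => hM.2 (by
  rintro _ ⟨x, rfl⟩
  exact Subgroup.mem_comap.1 (e.symm ▸ Subgroup.mem_top x))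

theorem Outer.card_eq (hM : Outer M) :
    Nat.card M = Nat.gcd 2 (Fintype.card F - 1) * Nat.card (M.comap inc) := by
  haveI := inc_range_normal (F := F)
  have h := Subgroup.card_mul_index ((inc (F := F)).range.subgroupOf M)
  have hi : ((inc (F := F)).range.subgroupOf M).index = Nat.gcd 2 (Fintype.card F - 1) := by
    show (inc (F := F)).range.relIndex M = _
    rw [← Subgroup.relIndex_sup_right, hM.sup, Subgroup.relIndex_top_right, index_inc_range]
  have hc : Nat.card ((inc (F := F)).range.subgroupOf M) = Nat.card (M.comap inc) := by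
    refine (Nat.card_congr (Equiv.ofBijective
      (fun x : M.comap inc => (⟨⟨inc x.1, x.2⟩, ⟨x.1, rfl⟩⟩ : (inc (F := F)).range.subgroupOf M)) ⟨?_, ?_⟩)).symm
    · intro a b h
      exact Subtype.ext (inc_injective (congrArg (fun z => z.1.1) h))
    · rintro ⟨⟨y, hy⟩, x, hx⟩
      have hx' : inc x = y := hx
      exact ⟨⟨x, show inc x ∈ M from hx' ▸ hy⟩, Subtype.ext (Subtype.ext hx')⟩
  rw [← h, hi, hc, mul_comm]

theorem Outer.map (hM : Outer M) (Θ : PG ≃* PG) {θ : PL ≃* PL} (h : Lifts θ Θ) :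
    Outer (M.map Θ.toMonoidHom) ∧ (M.map Θ.toMonoidHom).comap inc = (M.comap inc).map θ.toMonoidHom := by
  refine ⟨⟨coatom_map Θ hM.1, fun hle => hM.2 ?_⟩, ?_⟩
  · rintro _ ⟨x, rfl⟩
    obtain ⟨y, hy, e⟩ := hle ⟨θ x, rfl⟩
    rw [show inc x = y from Θ.injective ((h x).trans e.symm)]
    exact hy
  · ext x
    constructor
    · rintro ⟨y, hy, e⟩
      refine ⟨θ.symm x, ?_, θ.apply_symm_apply x⟩
      show inc (θ.symm x) ∈ M
      rw [show inc (θ.symm x) = y from Θ.injective (((h _).trans (by rw [θ.apply_symm_apply])).trans e.symm)]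
      exact hy
    · rintro ⟨y, hy, rfl⟩
      exact ⟨inc y, hy, h y⟩

/-- an invariant subgroup of `PSL₂` determines `M` -/
theorem Outer.eq_normalizer (h4 : 4 ≤ Fintype.card F) (hM : Outer M) {S : Subgroup PL} (hb : S ≠ ⊥) (ht : S ≠ ⊤)
    (hinv : ∀ P : GL (Fin 2) F, Matrix.ProjGenLinGroup.mk P ∈ M → ∀ x ∈ S, glConj P x ∈ S) :
    M = Subgroup.normalizer ((S.map inc : Subgroup PG) : Set PG) ∧
      M.comap inc = Subgroup.normalizer (S : Set PL) := by
  haveI := finite_PG (F := F)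
  have hle : M ≤ Subgroup.normalizer ((S.map inc : Subgroup PG) : Set PG) := by
    intro m hm
    refine mem_normalizer_of_conj ?_
    rintro _ ⟨x, hx, rfl⟩
    obtain ⟨P, rfl⟩ := Matrix.ProjGenLinGroup.mk_surjective m
    exact ⟨glConj P x, hinv P hm x hx, (conj_inc P x).symm⟩
  have hNc : (Subgroup.normalizer ((S.map inc : Subgroup PG) : Set PG)).comap inc = Subgroup.normalizer (S : Set PL) := by
    ext x
    constructor
    · intro hx
      refine mem_normalizer_of_conj fun v hv => ?_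
      obtain ⟨w, hw, e⟩ := (Subgroup.mem_normalizer_iff.1 hx _).1 ⟨v, hv, rfl⟩
      rw [show x * v * x⁻¹ = w from inc_injective (by rw [map_mul, map_mul, map_inv]; exact e.symm)]
      exact hw
    · intro hx
      refine mem_normalizer_of_conj ?_
      rintro _ ⟨v, hv, rfl⟩
      exact ⟨_, (Subgroup.mem_normalizer_iff.1 hx v).1 hv, by rw [map_mul, map_mul, map_inv]⟩
  have hne : Subgroup.normalizer ((S.map inc : Subgroup PG) : Set PG) ≠ ⊤ := by
    intro e
    rw [e, Subgroup.comap_top] at hNc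
    haveI := psl_simple h4
    rcases (Subgroup.normalizer_eq_top_iff.1 hNc.symm).eq_bot_or_eq_top with h | h
    · exact hb h
    · exact ht h
  have e := coatom_eq hM.1 hle hne
  exact ⟨e, e ▸ hNc⟩

end CfsgLib.SL2Dickson
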