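import Mathlib
import Cfsg.Agent.Lib.SL2.PGLBasic

/-! Tools for the maximal subgroups of `PGL₂`. -/

set_option autoImplicit false
set_option linter.style.haveILetI false

namespace CfsgLib.SL2Dickson

open Matrix CfsgLib.SL2Torus
open CfsgLib.PSL2Klein (π π_surj π_eq π_eq_one)
open Classical

variable {F : Type*} [Field F] [Fintype F]

local notation "L" => Matrix.SpecialLinearGroup (Fin 2) F
local notation "PL" => Matrix.ProjectiveSpecialLinearGroup (Fin 2) F
local notation "PG" => Matrix.ProjGenLinGroup (Fin 2) F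
local notation "M2" => Matrix (Fin 2) (Fin 2) F

theorem hasCycle_of_hom {G : Type*} [Group G] (f : G →* PL) (hf : Function.Injective f) {X : Subgroup PL}
    (hX : ∀ g, f g ∈ X) {x y w : G} (h : x * x = 1 ∧ y * y = 1 ∧ x ≠ 1 ∧ y ≠ 1 ∧ x ≠ y ∧ x * y = y * x ∧
      w * x * w⁻¹ = y ∧ w * y * w⁻¹ = x * y) : HasCycle X := by
  obtain ⟨h1, h2, h3, h4, h5, h6, h7, h8⟩ := h
  refine ⟨f x, hX _, f y, hX _, f w, hX _, by rw [← map_mul, h1, map_one], by rw [← map_mul, h2, map_one],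
    fun e => h3 ((map_eq_one_iff f hf).1 e), fun e => h4 ((map_eq_one_iff f hf).1 e), fun e => h5 (hf e),
    by rw [← map_mul, ← map_mul, h6], by rw [← map_inv, ← map_mul, ← map_mul, h7],
    by rw [← map_inv, ← map_mul, ← map_mul, h8, map_mul]⟩

theorem HasCycle.map {F' : Type*} [Field F'] [Fintype F'] {X : Subgroup PL} (h : HasCycle X)
    (f : PL →* Matrix.ProjectiveSpecialLinearGroup (Fin 2) F') (hf : Function.Injective f) :
    HasCycle (X.map f) := by
  obtain ⟨x, hx, y, hy, w, hw, h⟩ := h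
  refine hasCycle_of_hom (f.comp X.subtype) (hf.comp X.subtype_injective)
    (fun g => ⟨g.1, g.2, rfl⟩) (x := ⟨x, hx⟩) (y := ⟨y, hy⟩) (w := ⟨w, hw⟩) ?_
  simpa only [ne_eq, Subtype.ext_iff, Subgroup.coe_mul, Subgroup.coe_one, Subgroup.coe_inv] using h

theorem hasCycle_alt4 {X : Subgroup PL} (h : Nonempty (X ≃* alternatingGroup (Fin 4)) ∨ Nonempty (X ≃* Equiv.Perm (Fin 4))) :
    HasCycle X := by
  have key : ∃ x y w : alternatingGroup (Fin 4), x * x = 1 ∧ y * y = 1 ∧ x ≠ 1 ∧ y ≠ 1 ∧ x ≠ y ∧ x * y = y * x ∧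
      w * x * w⁻¹ = y ∧ w * y * w⁻¹ = x * y :=
    ⟨⟨Equiv.swap 0 1 * Equiv.swap 2 3, by rw [Equiv.Perm.mem_alternatingGroup]; decide⟩,
      ⟨Equiv.swap 0 2 * Equiv.swap 1 3, by rw [Equiv.Perm.mem_alternatingGroup]; decide⟩,
      ⟨Equiv.swap 1 2 * Equiv.swap 2 3, by rw [Equiv.Perm.mem_alternatingGroup]; decide⟩, by decide +kernel⟩
  obtain ⟨x, y, w, hk⟩ := key
  rcases h with ⟨⟨e⟩⟩ | ⟨⟨e⟩⟩
  · exact hasCycle_of_hom (X.subtype.comp e.symm.toMonoidHom) (X.subtype_injective.comp e.symm.injective)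
      (fun g => (e.symm g).2) hk
  · exact hasCycle_of_hom (X.subtype.comp (e.symm.toMonoidHom.comp (alternatingGroup (Fin 4)).subtype))
      (X.subtype_injective.comp (e.symm.injective.comp (alternatingGroup (Fin 4)).subtype_injective))
      (fun g => (e.symm g.1).2) hk

theorem hasCycle_pslSub {K : Subfield F} (hodd : Nat.card K % 2 = 1) : HasCycle (pslSub K) := by
  haveI : Fintype K := Fintype.ofFinite _
  rw [Nat.card_eq_fintype_card] at hodd
  obtain ⟨e⟩ := pslSub_equiv (RingEquiv.refl K)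
  have hK := (CfsgLib.PSL2Klein.four_isKlein (F := K) hodd (r := 1) (one_mem _)).1
  refine ((hasCycle_klein hodd hK).map ((pslSub K).subtype.comp e.symm.toMonoidHom)
    ((pslSub K).subtype_injective.comp e.symm.injective)).mono ?_
  rintro _ ⟨x, -, rfl⟩
  exact (e.symm x).2

/-- `PGL₂(q)` is a subgroup of `PSL₂(q²)` -/
theorem exists_embedding (hodd : Fintype.card F % 2 = 1) :
    ∃ (F' : Type) (_ : Field F') (_ : Fintype F') (j : PG →* Matrix.ProjectiveSpecialLinearGroup (Fin 2) F'),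
      Function.Injective j ∧ Fintype.card F' % 2 = 1 ∧ 4 ≤ Fintype.card F' ∧ ringChar F' = ringChar F := by
  haveI := ringChar.charP F
  obtain ⟨n, hp, hq⟩ := FiniteField.card F (ringChar F)
  haveI := Fact.mk hp
  haveI : Fintype (GaloisField (ringChar F) (2 * n)) := Fintype.ofFinite _
  have hc : Fintype.card (GaloisField (ringChar F) (2 * n)) = Fintype.card F ^ 2 := by
    rw [← Nat.card_eq_fintype_card, GaloisField.card _ _ (by have := n.pos; omega), hq, ← pow_mul, mul_comm]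
  have hodd' : Fintype.card (GaloisField (ringChar F) (2 * n)) % 2 = 1 := by rw [hc, Nat.pow_mod, hodd]
  obtain ⟨K, hK⟩ := exists_subfield (F := GaloisField (ringChar F) (2 * n)) (q₀ := Fintype.card F) (m := 2)
    Fintype.one_lt_card hc.symm
  haveI : Fintype K := Fintype.ofFinite _
  have e : F ≃+* K := FiniteField.ringEquivOfCardEq (by rw [← hK, Nat.card_eq_fintype_card])
  obtain ⟨ep⟩ := pglSub_equiv (pglSub_card_of_squares (K := K) fun k hk => isSquare_of_even hodd' (by rw [hK, hc]) even_two hk) e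
  refine ⟨_, inferInstance, inferInstance, (pglSub K).subtype.comp ep.symm.toMonoidHom,
    (pglSub K).subtype_injective.comp ep.symm.injective, hodd', ?_, ringChar.eq _ _⟩
  rw [hc]; exact Nat.pow_le_pow_left Fintype.one_lt_card 2

theorem hasCycle_noncomm {X : Subgroup PL} (h : HasCycle X) : ¬ ∀ a ∈ X, ∀ b ∈ X, a * b = b * a := by
  obtain ⟨x, hx, y, hy, w, hw, -, -, -, -, h5, -, h7, -⟩ := h
  intro hc
  exact h5 (by rw [← h7, hc w hw x hx, mul_inv_cancel_right])

theorem psl_card_char {M : Subgroup (Matrix.ProjGenLinGroup (Fin 2) F)} {r : ℕ} (hr : ∃ k, 1 ≤ k ∧ r = ringChar F ^ k)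
    (h : Nat.card M = r * (r ^ 2 - 1) ∨ 2 * Nat.card M = r * (r ^ 2 - 1)) (hodd : Fintype.card F % 2 = 1) :
    ringChar F ∣ Nat.card M := by
  obtain ⟨k, hk, rfl⟩ := hr
  have hd : ringChar F ∣ ringChar F ^ k * ((ringChar F ^ k) ^ 2 - 1) := dvd_mul_of_dvd_left (dvd_pow_self _ (by omega)) _
  rcases h with e | e
  · rwa [e]
  · rw [← e] at hd
    haveI := ringChar.charP F
    obtain ⟨n, hp, -⟩ := FiniteField.card F (ringChar F)
    refine ((Nat.Prime.dvd_mul hp).1 hd).resolve_left fun h2 => ?_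
    have := Nat.le_of_dvd two_pos h2
    have := ringChar_odd hodd
    omega

/-- Dickson's list for a maximal subgroup of `PGL₂` -/
theorem Outer.cases {M : Subgroup (Matrix.ProjGenLinGroup (Fin 2) F)} (hodd : Fintype.card F % 2 = 1) :
    (∀ a ∈ M, ∀ b ∈ M, a * b = b * a) ∨
    (¬ HasCycle (M.comap inc) ∧ ∃ n, Nat.card M = 2 * n ∧ Nonempty (M ≃* DihedralGroup n)) ∨
    (Nat.card M = 12 ∧ Nonempty (M ≃* alternatingGroup (Fin 4))) ∨
    (Nat.card M = 24 ∧ Nonempty (M ≃* Equiv.Perm (Fin 4))) ∨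
    (Nat.card M = 60 ∧ Nonempty (M ≃* alternatingGroup (Fin 5))) ∨
    (ringChar F ∣ Nat.card M ∧ (¬ HasCycle (M.comap inc) ∨
      ∃ r, (∃ k, 1 ≤ k ∧ r = ringChar F ^ k) ∧ (Nat.card M = r * (r ^ 2 - 1) ∨ 2 * Nat.card M = r * (r ^ 2 - 1)))) := by
  obtain ⟨F', i1, i2, j, hj, hodd', h4', hchar⟩ := exists_embedding hodd
  have eM : M ≃* M.map j := M.equivMapOfInjective j hj
  have hc : Nat.card (M.map j) = Nat.card M := Subgroup.card_map_of_injective hj
  have cyc : HasCycle (M.comap inc) → HasCycle (M.map j) := fun h =>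
    (h.map (j.comp inc) (hj.comp inc_injective)).mono (by rintro _ ⟨x, hx, rfl⟩; exact ⟨inc x, hx, rfl⟩)
  obtain ⟨c4, c24, c60⟩ := exceptional_card (M := M.map j)
  rcases dickson (M.map j) with h | h | h | h | h | h | h
  · left
    obtain ⟨hcy, -⟩ := h
    haveI := hcy
    intro a ha b hb
    obtain ⟨g, hg⟩ := IsCyclic.exists_generator (α := M.map j)
    obtain ⟨u, hu⟩ := hg (eM ⟨a, ha⟩)
    obtain ⟨v, hv⟩ := hg (eM ⟨b, hb⟩)
    have e : eM ⟨a, ha⟩ * eM ⟨b, hb⟩ = eM ⟨b, hb⟩ * eM ⟨a, ha⟩ := by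
      rw [← hu, ← hv]; exact (Commute.refl g).zpow_zpow u v
    rw [← map_mul, ← map_mul] at e
    exact congrArg Subtype.val (eM.injective e)
  · obtain ⟨T, hT, hle, n, -, -, hn, ⟨e⟩⟩ := h
    exact Or.inr (Or.inl ⟨fun hh => cycle_not_le_torus (cyc hh) hT hle, n, hc ▸ hn, ⟨eM.trans e⟩⟩)
  · exact Or.inr (Or.inr (Or.inl ⟨hc ▸ c4 h, h.1.map eM.trans⟩))
  · exact Or.inr (Or.inr (Or.inr (Or.inl ⟨hc ▸ c24 h, h.1.map eM.trans⟩)))
  · exact Or.inr (Or.inr (Or.inr (Or.inr (Or.inl ⟨hc ▸ c60 h, h.1.map eM.trans⟩))))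
  · refine Or.inr (Or.inr (Or.inr (Or.inr (Or.inr ?_))))
    obtain ⟨y, hle, hne⟩ := h
    refine ⟨?_, Or.inl fun hh => cycle_not_le_bor hodd' (cyc hh) y hle⟩
    obtain ⟨x, ⟨hxM, u, hu, hux⟩, hx1⟩ := (M.map j ⊓ (U F').map (MulAut.conj y).toMonoidHom).bot_or_exists_ne_one.resolve_left hne
    haveI := ringChar.charP F'
    obtain ⟨n, hp, -⟩ := FiniteField.card F' (ringChar F')
    have hpow : x ^ ringChar F' = 1 := unip_pow (y := y) (x := x) (by rw [← hux]; simpa [mul_assoc] using hu)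
    have ho : orderOf x = ringChar F' :=
      ((Nat.dvd_prime hp).1 (orderOf_dvd_of_pow_eq_one hpow)).resolve_left (fun e => hx1 (orderOf_eq_one_iff.1 e))
    rw [← hchar, ← ho, ← hc, ← Subgroup.orderOf_mk x hxM]
    exact orderOf_dvd_natCard _
  · refine Or.inr (Or.inr (Or.inr (Or.inr (Or.inr ?_))))
    obtain ⟨θ, K, hK⟩ := h
    obtain ⟨k, hk, hkK⟩ := subfield_pow K
    rw [hchar] at hkK
    have hKo : Nat.card K % 2 = 1 := by
      have hp2 : ringChar F % 2 = 1 := by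
        haveI := ringChar.charP F
        obtain ⟨n, hp, hq⟩ := FiniteField.card F (ringChar F)
        have := ringChar_odd hodd
        exact hp.eq_two_or_odd.resolve_left (by omega)
      rw [hkK, Nat.pow_mod, hp2, one_pow]; rfl
    have hform : Nat.card M = Nat.card K * (Nat.card K ^ 2 - 1) ∨ 2 * Nat.card M = Nat.card K * (Nat.card K ^ 2 - 1) := by
      have hcθ : Nat.card ((M.map j).map θ.toMonoidHom) = Nat.card M := by
        rw [Subgroup.card_map_of_injective θ.injective, hc]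
      rcases hK with e | ⟨e, -, hcard⟩
      · right
        have h2 := card_pslSub K
        rw [(gcd_sub_one (Nat.card_pos (α := K))).1 hKo] at h2
        rw [← hcθ, e, h2]
      · left
        rw [← hcθ, e, hcard]
    exact ⟨psl_card_char ⟨k, hk, hkK⟩ hform hodd, Or.inr ⟨_, ⟨k, hk, hkK⟩, hform⟩⟩

/-- the image of `PGL₂(K)` -/
def glRange (K : Subfield F) : Subgroup PG := (Matrix.ProjGenLinGroup.map (n := Fin 2) K.subtype).range

theorem glRange_map_injective (K : Subfield F) :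
    Function.Injective (Matrix.ProjGenLinGroup.map (n := Fin 2) K.subtype) := by
  intro a b hab
  obtain ⟨a, rfl⟩ := Matrix.ProjGenLinGroup.mk_surjective a
  obtain ⟨b, rfl⟩ := Matrix.ProjGenLinGroup.mk_surjective b
  obtain ⟨c, hc⟩ := Matrix.ProjGenLinGroup.mk_eq_mk_iff.1 hab
  refine mk_eq_of_smul (c := (c : F)) c.ne_zero fun i j => ?_
  have := congrArg (fun z : GL (Fin 2) F => z.1 i j) hc
  simp only [mul_scalar_entry] at this
  rw [mul_comm]
  exact this.symm

theorem glRange_equiv {K : Subfield F} {K' : Type*} [Field K'] (e : K' ≃+* K) :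
    Nonempty (glRange K ≃* Matrix.ProjGenLinGroup (Fin 2) K') := by
  have h1 : Function.Bijective (Matrix.ProjGenLinGroup.map (n := Fin 2) e.symm.toRingHom) := by
    constructor
    · intro a b hab
      obtain ⟨a, rfl⟩ := Matrix.ProjGenLinGroup.mk_surjective a
      obtain ⟨b, rfl⟩ := Matrix.ProjGenLinGroup.mk_surjective b
      obtain ⟨c, hc⟩ := Matrix.ProjGenLinGroup.mk_eq_mk_iff.1 hab
      refine Matrix.ProjGenLinGroup.mk_eq_mk_iff.2 ⟨Units.map e.toRingHom.toMonoidHom c, ?_⟩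
      apply Units.ext
      ext i j : 1
      have := congrArg (fun z : GL (Fin 2) K' => e (z.1 i j)) hc
      simp only [mul_scalar_entry] at this ⊢
      simpa using this
    · intro b
      obtain ⟨b, rfl⟩ := Matrix.ProjGenLinGroup.mk_surjective b
      refine ⟨Matrix.ProjGenLinGroup.mk (Matrix.GeneralLinearGroup.map e.toRingHom b), ?_⟩
      refine congrArg Matrix.ProjGenLinGroup.mk (Units.ext ?_)
      ext i j : 1
      simp
  exact ⟨(MonoidHom.ofInjective (glRange_map_injective K)).symm.trans (MulEquiv.ofBijective _ h1)⟩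

theorem card_glRange (K : Subfield F) : Nat.card (glRange K) = Nat.card K * (Nat.card K ^ 2 - 1) := by
  rw [glRange, ← Nat.card_congr (MonoidHom.ofInjective (glRange_map_injective K)).toEquiv,
    CfsgLib.Linear.Card.card_PGL, card_L_eq, Nat.card_eq_fintype_card (α := K)]

theorem inc_pslSub_le (K : Subfield F) : (pslSub K).map inc ≤ glRange K := by
  rintro _ ⟨_, ⟨g, rfl⟩, rfl⟩
  exact ⟨Matrix.ProjGenLinGroup.mk (Matrix.SpecialLinearGroup.toGL g),
    congrArg Matrix.ProjGenLinGroup.mk (Units.ext (Matrix.ext fun _ _ => rfl))⟩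

theorem glRange_mono {K K' : Subfield F} (h : K ≤ K') : glRange K ≤ glRange K' := by
  rintro _ ⟨a, rfl⟩
  obtain ⟨a, rfl⟩ := Matrix.ProjGenLinGroup.mk_surjective a
  exact ⟨Matrix.ProjGenLinGroup.mk (Matrix.GeneralLinearGroup.map (Subfield.inclusion h) a),
    congrArg Matrix.ProjGenLinGroup.mk (Units.ext (Matrix.ext fun _ _ => rfl))⟩

theorem glRange_normalizes (K : Subfield F) :
    glRange K ≤ Subgroup.normalizer (((pslSub K).map inc : Subgroup PG) : Set PG) := by
  haveI := finite_PG (F := F)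
  rintro _ ⟨a, rfl⟩
  obtain ⟨a, rfl⟩ := Matrix.ProjGenLinGroup.mk_surjective a
  refine mem_normalizer_of_conj ?_
  rintro _ ⟨_, ⟨g, rfl⟩, rfl⟩
  refine ⟨_, ⟨glFun a g, rfl⟩, ?_⟩
  show inc (π _) = Matrix.ProjGenLinGroup.mk _ * inc (π _) * (Matrix.ProjGenLinGroup.mk _)⁻¹
  rw [conj_inc, glConj_π]
  refine congrArg inc (congrArg π (Subtype.ext ?_))
  show ((a.1 * g.1 * (a⁻¹).1).map K.subtype : M2) = _
  rw [Matrix.map_mul, Matrix.map_mul, glFun_coe, ← Matrix.GeneralLinearGroup.map_inv]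
  rfl

end CfsgLib.SL2Dickson
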