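import Mathlib
import Cfsg.Agent.Lib.SL2.PGLTools

/-! The maximal subgroups of `PGL₂` not containing `PSL₂`. -/

set_option autoImplicit false
set_option linter.style.haveILetI false

namespace CfsgLib.SL2Dickson

open Matrix CfsgLib.SL2Torus
open CfsgLib.PSL2Klein (π π_surj π_eq π_eq_one x₀)
open CfsgLib.PSL2Two renaming J → Jq
open Classical

variable {F : Type*} [Field F] [Fintype F]

local notation "L" => Matrix.SpecialLinearGroup (Fin 2) F
local notation "PL" => Matrix.ProjectiveSpecialLinearGroup (Fin 2) F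
local notation "PG" => Matrix.ProjGenLinGroup (Fin 2) F
local notation "M2" => Matrix (Fin 2) (Fin 2) F

theorem glConj_torus (P : GL (Fin 2) F) {T : Subgroup PL} (hT : IsTorus T) :
    IsTorus (T.map (glConj P).toMonoidHom) := by
  obtain ⟨g, hg, rfl⟩ := hT
  refine ⟨glFun P g, ?_, ?_⟩
  · rw [tr, glFun_coe, Matrix.trace_units_conj]; exact hg
  · have e : (cent g).map (glConjL P).toMonoidHom = cent (glFun P g) := by
      ext x
      constructor
      · rintro ⟨a, ha, rfl⟩
        exact mem_cent.2 (((glConjL P).map_mul g a).symm.trans ((congrArg (glConjL P) (mem_cent.1 ha)).trans ((glConjL P).map_mul a g)))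
      · intro hx
        obtain ⟨a, rfl⟩ := (glConjL P).surjective x
        refine ⟨a, mem_cent.2 ((glConjL P).injective ?_), rfl⟩
        rw [map_mul, map_mul]
        exact mem_cent.1 hx
    rw [← e, Subgroup.map_map, Subgroup.map_map]
    rfl

theorem bor_pow_mem_U {b : PL} (hb : b ∈ Bor F) (hp : b ^ ringChar F = 1) : b ∈ U F := by
  haveI := ringChar.charP F
  obtain ⟨n, hpp, -⟩ := FiniteField.card F (ringChar F)
  haveI := Fact.mk hpp
  by_contra hU
  have hb1 : b ≠ 1 := fun e => hU (e ▸ (U F).one_mem)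
  obtain ⟨g, hg, hu⟩ := hb
  have hne : g.1 0 0 * g.1 0 0 ≠ 1 := fun e2 => hU ((δ_eq_one (x := ⟨b, g, hg, hu⟩)).1
    (Units.ext ((δ_eq _ hg).trans e2)))
  exact not_semi_of_pow (ringChar F) hp hb1 ⟨g, hg, (torus_le_Bor hu hne).1⟩

theorem no_gap {p k j c : ℕ} (hp : 3 ≤ p) (hk : 1 ≤ k) (hc : 2 ≤ c) (hc' : c ≤ 4) :
    p ^ j * ((p ^ j) ^ 2 - 1) ≠ c * (p ^ k * ((p ^ k) ^ 2 - 1)) := by
  intro h
  have hr : 3 ≤ p ^ k := le_trans hp (Nat.le_self_pow (by omega) p)
  have hr9 : 9 ≤ (p ^ k) ^ 2 := Nat.pow_le_pow_left hr 2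
  have hpos : 0 < p ^ k * ((p ^ k) ^ 2 - 1) := Nat.mul_pos (by omega) (by omega)
  rcases Nat.lt_or_ge k j with hlt | hge
  · have h1 : 3 * p ^ k ≤ p ^ j := le_trans (Nat.mul_le_mul_right _ hp) (by
      rw [← pow_succ']; exact Nat.pow_le_pow_right (by omega) hlt)
    have h2 : (3 * p ^ k) ^ 2 ≤ (p ^ j) ^ 2 := Nat.pow_le_pow_left h1 2
    rw [mul_pow] at h2
    have h3 : 3 * p ^ k * (8 * ((p ^ k) ^ 2 - 1)) ≤ p ^ j * ((p ^ j) ^ 2 - 1) := Nat.mul_le_mul h1 (by omega)
    rw [h, show 3 * p ^ k * (8 * ((p ^ k) ^ 2 - 1)) = 24 * (p ^ k * ((p ^ k) ^ 2 - 1)) by ring] at h3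
    have := Nat.le_of_mul_le_mul_right h3 hpos
    omega
  · have h1 : p ^ j ≤ p ^ k := Nat.pow_le_pow_right (by omega) hge
    have h3 : p ^ j * ((p ^ j) ^ 2 - 1) ≤ 1 * (p ^ k * ((p ^ k) ^ 2 - 1)) := by
      rw [one_mul]; exact Nat.mul_le_mul h1 (by have := Nat.pow_le_pow_left h1 2; omega)
    rw [h] at h3
    have := Nat.le_of_mul_le_mul_right h3 hpos
    omega

theorem card_four {H : Subgroup PL} (e : H ≃* DihedralGroup 2) : IsKleinFour H := by
  refine klein_mk (by rw [Nat.card_congr e.toEquiv, DihedralGroup.nat_card]) fun x hx => ?_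
  have h : ∀ a : DihedralGroup 2, a * a = 1 := by decide
  have := h (e ⟨x, hx⟩)
  rw [← map_mul, map_eq_one_iff _ e.injective] at this
  exact congrArg Subtype.val this

variable {M : Subgroup (Matrix.ProjGenLinGroup (Fin 2) F)}

theorem Outer.inv {P : GL (Fin 2) F} (hP : Matrix.ProjGenLinGroup.mk P ∈ M) {x : PL} (hx : x ∈ M.comap inc) :
    glConj P x ∈ M.comap inc := by
  rw [Subgroup.mem_comap, ← conj_inc]
  exact mul_mem (mul_mem hP hx) (inv_mem hP)

theorem Outer.card_odd (hodd : Fintype.card F % 2 = 1) (hM : Outer M) :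
    Nat.card M = 2 * Nat.card (M.comap inc) := by rw [hM.card_eq, gcd_odd hodd]

theorem Outer.ne_bot (hodd : Fintype.card F % 2 = 1) (h5 : 5 ≤ Fintype.card F) (hM : Outer M) : M.comap inc ≠ ⊥ := by
  intro e
  have hc : Nat.card M = 2 := by rw [hM.card_odd hodd, e, Subgroup.card_bot, mul_one]
  haveI := finite_PG (F := F)
  haveI := Fact.mk Nat.prime_two
  have hg : IsPGroup 2 M := IsPGroup.of_card (n := 1) (by rw [hc, pow_one])
  obtain ⟨P, hP⟩ := hg.exists_le_sylow
  rcases eq_or_ne (P : Subgroup PG) ⊤ with h | h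
  · obtain ⟨n, hn⟩ := IsPGroup.iff_card.1 (IsPGroup.of_equiv (h ▸ P.2 : IsPGroup 2 (⊤ : Subgroup PG)) Subgroup.topEquiv)
    rw [card_PG] at hn
    rcases (Nat.dvd_prime_pow Nat.prime_two).1 (Dvd.intro _ hn) with ⟨i, -, hi⟩
    rcases i with _ | i
    · rw [pow_zero] at hi; omega
    · rw [hi, pow_succ] at hodd; omega
  · have h2 : (P : Subgroup PG) = M := (coatom_eq hM.1 hP h).symm
    have h3 := P.not_dvd_index
    rw [h2] at h3
    apply h3
    have h4 := Subgroup.card_mul_index M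
    rw [hc, card_PG] at h4
    have h25 : Fintype.card F ^ 2 % 4 = 1 := by
      rw [Nat.pow_mod]; rcases (show Fintype.card F % 4 = 1 ∨ Fintype.card F % 4 = 3 by omega) with e | e <;> rw [e]
    have h44 : 4 ∣ Fintype.card F * (Fintype.card F ^ 2 - 1) := dvd_mul_of_dvd_right (by omega) _
    rw [← h4] at h44
    omega

theorem Outer.not_cyc (hodd : Fintype.card F % 2 = 1) (h5 : 5 ≤ Fintype.card F) (hM : Outer M) :
    ¬ CycCase (M.comap inc) := by
  rintro ⟨-, hb⟩
  have hne := hM.ne_bot hodd h5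
  obtain ⟨T, hT, hle⟩ := hb.resolve_left hne
  obtain ⟨x, hx, hx1⟩ := ((M.comap inc).bot_or_exists_ne_one).resolve_left hne
  have h4 : 4 ≤ Fintype.card F := by omega
  obtain ⟨-, e⟩ := hM.eq_normalizer h4 (S := T) (fun e => hx1 (by simpa [e] using hle hx))
    (fun e => torus_normalizer_ne_top h4 hT (top_le_iff.1 (e.symm.le.trans Subgroup.le_normalizer)))
    (fun P hP v hv => by
      rw [torus_eq hT (glConj_torus P hT) (hle (Outer.inv hP hx)) ⟨x, hle hx, rfl⟩
        (fun e => hx1 ((map_eq_one_iff _ (glConj P).injective).1 e))]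
      exact ⟨v, hv, rfl⟩)
  rw [e] at hle
  have := Subgroup.card_le_of_le hle
  rw [torus_normalizer_card hT] at this
  have := two_le_card_torus h4 hT
  omega

theorem Outer.dih (hodd : Fintype.card F % 2 = 1) (h5 : 5 ≤ Fintype.card F) (hM : Outer M)
    (h : DihCase (M.comap inc)) : ∃ T : Subgroup PL, IsTorus T ∧ 3 ≤ Nat.card T ∧
      M.comap inc = Subgroup.normalizer (T : Set PL) ∧ Nonempty (M ≃* DihedralGroup (2 * Nat.card T)) := by
  have h4 : 4 ≤ Fintype.card F := by omega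
  obtain ⟨T, hT, hle, n, hnT, hn, hcard, ⟨e⟩⟩ := h
  rcases (show n = 2 ∨ 3 ≤ n by omega) with rfl | hn3
  · exfalso
    have hV := card_four e
    obtain ⟨-, h2⟩ := hM.eq_normalizer h4 (S := M.comap inc) (hM.ne_bot hodd h5) hM.comap_ne_top (fun _ hP _ hx => Outer.inv hP hx)
    rcases klein_card hodd hV with ⟨-, h⟩ | ⟨-, h⟩ <;> rw [← h2] at h <;> omega
  have key : ∀ y ∈ Subgroup.normalizer (T : Set PL), orderOf y = n → y ∈ T := fun y hy ho => by
    by_contra hyT
    have := Nat.le_of_dvd two_pos (ho ▸ orderOf_dvd_of_pow_eq_one (sq y ▸ (torus_outside hT hy hyT).1))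
    omega
  set x : PL := ((e.symm (DihedralGroup.r 1) : M.comap inc) : PL)
  have hxo : orderOf x = n := by rw [Subgroup.orderOf_coe, MulEquiv.orderOf_eq, DihedralGroup.orderOf_r_one]
  have hxH : x ∈ M.comap inc := SetLike.coe_mem _
  have hxT := key x (hle hxH) hxo
  have hx1 : x ≠ 1 := fun e => by rw [e, orderOf_one] at hxo; omega
  obtain ⟨-, heq⟩ := hM.eq_normalizer h4 (S := T) (fun e => hx1 (by simpa [e] using hxT))
    (fun e => torus_normalizer_ne_top h4 hT (top_le_iff.1 (e.symm.le.trans Subgroup.le_normalizer)))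
    (fun P hP v hv => by
      rw [torus_eq hT (glConj_torus P hT) (key _ (hle (Outer.inv hP hxH)) (by rw [MulEquiv.orderOf_eq, hxo])) ⟨x, hxT, rfl⟩
        (fun e => hx1 ((map_eq_one_iff _ (glConj P).injective).1 e))]
      exact ⟨v, hv, rfl⟩)
  have hcM : Nat.card M = 4 * Nat.card T := by rw [hM.card_odd hodd, heq, torus_normalizer_card hT]; ring
  have hnc : n = Nat.card T := by rw [heq, torus_normalizer_card hT] at hcard; omega
  refine ⟨T, hT, hnc ▸ hn3, heq, ?_⟩
  set s : PL := ((e.symm (DihedralGroup.sr 0) : M.comap inc) : PL)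
  have hsH : s ∈ M.comap inc := SetLike.coe_mem _
  have hsr : s * x * s⁻¹ = x⁻¹ := by
    have : (DihedralGroup.sr 0 : DihedralGroup n) * DihedralGroup.r 1 * (DihedralGroup.sr 0)⁻¹ = (DihedralGroup.r 1)⁻¹ := by
      simp
    have := congrArg (fun z => ((e.symm z : M.comap inc) : PL)) this
    simpa only [map_mul, map_inv, Subgroup.coe_mul, Subgroup.coe_inv] using this
  have hxi : orderOf (inc x) = n := by rw [orderOf_injective inc inc_injective, hxo]
  have trans' : ∀ {G : Type} [Group G], (M ≃* G) → ∃ a b : G, orderOf a = n ∧ b * a * b⁻¹ = a⁻¹ := fun {G} _ f => by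
    have hxM : inc x ∈ M := hxH
    have hsM : inc s ∈ M := hsH
    refine ⟨f ⟨inc x, hxM⟩, f ⟨inc s, hsM⟩, by rw [MulEquiv.orderOf_eq, Subgroup.orderOf_mk, hxi], ?_⟩
    rw [← map_inv, ← map_mul, ← map_mul, ← map_inv]
    refine congrArg f (Subtype.ext ?_)
    show inc s * inc x * (inc s)⁻¹ = (inc x)⁻¹
    rw [← map_inv, ← map_mul, ← map_mul, hsr, map_inv]
  have hnoc : ¬ ringChar F ∣ Nat.card M := by
    haveI := ringChar.charP F
    obtain ⟨m, hp, -⟩ := FiniteField.card F (ringChar F)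
    haveI := Fact.mk hp
    rw [hcM]
    intro hd
    rcases (Nat.Prime.dvd_mul hp).1 hd with hd | hd
    · have := Nat.le_of_dvd (by norm_num) hd
      have h3 := ringChar_odd hodd
      rcases (show ringChar F = 3 ∨ ringChar F = 4 by omega) with e | e <;> rw [e] at hd hp
      · omega
      · norm_num at hp
    · exact torus_coprime (ringChar F) hT hd
  rcases Outer.cases hodd (M := M) with h | ⟨-, m, hm, hiso⟩ | ⟨hc, ⟨f⟩⟩ | ⟨hc, ⟨f⟩⟩ | ⟨hc, ⟨f⟩⟩ | ⟨h, -⟩
  · exfalso
    have := h _ hsH _ hxH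
    rw [← map_mul, ← map_mul] at this
    rw [inc_injective this, mul_inv_cancel_right] at hsr
    have := Nat.le_of_dvd two_pos (hxo ▸ orderOf_dvd_of_pow_eq_one (show x ^ 2 = 1 by rw [sq]; exact mul_eq_one_iff_eq_inv.2 hsr))
    omega
  · rwa [show 2 * Nat.card T = m by omega]
  · exfalso
    obtain ⟨a, b, ha, hb⟩ := trans' f
    exact orders_small.2.1 a b (by rw [show 3 = n by omega, ← ha]; exact pow_orderOf_eq_one a)
      (fun e => by rw [e, orderOf_one] at ha; omega) hb
  · exfalso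
    obtain ⟨a, b, ha, -⟩ := trans' f
    rcases orders_small.2.2.1 a with e | e <;>
    · have := Nat.le_of_dvd (by norm_num) (ha ▸ orderOf_dvd_of_pow_eq_one e); omega
  · exfalso
    obtain ⟨a, b, ha, -⟩ := trans' f
    rcases orders_small.2.2.2 a with e | e | e <;>
    · have := Nat.le_of_dvd (by norm_num) (ha ▸ orderOf_dvd_of_pow_eq_one e); omega
  · exact absurd h hnoc

theorem Outer.bor (hodd : Fintype.card F % 2 = 1) (h5 : 5 ≤ Fintype.card F) (hM : Outer M)
    (h : BorCase (M.comap inc)) : ∃ y : PL, M.comap inc = (Bor F).map (MulAut.conj y).toMonoidHom ∧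
      Nat.card M = Fintype.card F * (Fintype.card F - 1) := by
  have h4 : 4 ≤ Fintype.card F := by omega
  obtain ⟨y, hle, hne⟩ := h
  set W := (U F).map (MulAut.conj y).toMonoidHom with hW
  haveI := ringChar.charP F
  have powU : ∀ v ∈ W, v ^ ringChar F = 1 := by
    rintro _ ⟨_, ⟨b, rfl⟩, rfl⟩
    rw [← map_pow, up, π_u_pow_char, map_one]
  have memW : ∀ v ∈ (Bor F).map (MulAut.conj y).toMonoidHom, v ^ ringChar F = 1 → v ∈ W := by
    rintro _ ⟨b, hb, rfl⟩ hv
    refine ⟨b, bor_pow_mem_U hb ?_, rfl⟩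
    rwa [← map_pow, map_eq_one_iff (MulAut.conj y).toMonoidHom (MulAut.conj y).injective] at hv
  obtain ⟨u, ⟨huH, huW⟩, hu1⟩ := ((M.comap inc) ⊓ W).bot_or_exists_ne_one.resolve_left hne
  obtain ⟨-, heq⟩ := hM.eq_normalizer h4 (S := W) (fun e => hu1 (by simpa [e] using huW))
    (fun e => by
      have hW' : W ≤ (Bor F).map (MulAut.conj y).toMonoidHom := Subgroup.map_mono (U_le_Bor F)
      rw [e, top_le_iff, map_eq_top'] at hW'
      exact Bor_ne_top h4 hW')
    (fun P hP v hv => by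
      have hu' : glConj P u ∈ W := memW _ (hle (Outer.inv hP huH)) (by rw [← map_pow, powU u huW, map_one])
      have hu'1 : glConj P u ≠ 1 := fun e => hu1 ((map_eq_one_iff _ (glConj P).injective).1 e)
      refine memW _ ?_ (by rw [← map_pow, powU v hv, map_one])
      have hc : glConj P v * glConj P u * (glConj P v)⁻¹ = glConj P u := by
        rw [← map_inv, ← map_mul, ← map_mul]
        congr 1
        obtain ⟨a, ha, rfl⟩ := hv
        obtain ⟨b, hb, rfl⟩ := huW
        rw [← map_inv, ← map_mul, ← map_mul, U_comm ha hb, mul_inv_cancel_right]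
      generalize glConj P v = v' at hc ⊢
      obtain ⟨b, hb, hbe⟩ := hu'
      rw [← hbe] at hc hu'1
      refine ⟨y⁻¹ * v' * y, TI hb (fun e => hu'1 (by rw [e, map_one])) ?_, by simp [mul_assoc]⟩
      rw [show y⁻¹ * v' * y * b * (y⁻¹ * v' * y)⁻¹ = b by
        have := congrArg (fun z => y⁻¹ * z * y) hc
        simpa [mul_assoc] using this]
      exact hb)
  rw [hW, ← Subgroup.map_equiv_normalizer_eq, normalizer_U] at heq
  refine ⟨y, heq, ?_⟩
  have hB := card_Bor F
  rw [gcd_odd hodd] at hB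
  rw [hM.card_odd hodd, heq, Subgroup.card_map_of_injective (MulAut.conj y).injective, hB]

theorem Outer.s4 (hodd : Fintype.card F % 2 = 1) (hM : Outer M) : ¬ S4Case (M.comap inc) ∧ ¬ A5Case (M.comap inc) := by
  obtain ⟨-, c24, c60⟩ := exceptional_card (M := M.comap inc)
  have hc := hM.card_odd hodd
  haveI := ringChar.charP F
  obtain ⟨m, hp, -⟩ := FiniteField.card F (ringChar F)
  have hp3 := ringChar_odd hodd
  haveI := Fact.mk hp
  refine ⟨fun h => ?_, fun h => ?_⟩
  · have hcyc := hasCycle_alt4 (Or.inr h.1)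
    have hnp := pow_eq_of_semi h.2
    rw [c24 h] at hc hnp
    rcases Outer.cases hodd (M := M) with h' | ⟨h', -⟩ | ⟨h', -⟩ | ⟨h', -⟩ | ⟨h', -⟩ | ⟨h', -⟩
    · exact hasCycle_noncomm hcyc fun a ha b hb => inc_injective (by rw [map_mul, map_mul]; exact h' _ ha _ hb)
    · exact h' hcyc
    · omega
    · omega
    · omega
    · rw [hc] at h'
      exact hnp ((Nat.Prime.dvd_mul hp).1 h' |>.resolve_left fun h2 => by have := Nat.le_of_dvd two_pos h2; omega)
  · have hcyc := hasCycle_A5 h.1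
    rw [c60 h] at hc
    rcases Outer.cases hodd (M := M) with h' | ⟨h', -⟩ | ⟨h', -⟩ | ⟨h', -⟩ | ⟨h', -⟩ | ⟨h', h''⟩
    · exact hasCycle_noncomm hcyc fun a ha b hb => inc_injective (by rw [map_mul, map_mul]; exact h' _ ha _ hb)
    · exact h' hcyc
    · omega
    · omega
    · omega
    · rcases h'' with h'' | ⟨r, ⟨k, hk, rfl⟩, hr⟩
      · exact h'' hcyc
      rw [hc] at hr h'
      have hs := h.2
      rcases hs with hs | h3
      · have hnp := pow_eq_of_semi hs
        rw [c60 h] at hnp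
        exact hnp ((Nat.Prime.dvd_mul hp).1 h' |>.resolve_left fun h2 => by have := Nat.le_of_dvd two_pos h2; omega)
      · rw [h3] at hr
        rcases (show k = 1 ∨ k = 2 ∨ 3 ≤ k by omega) with rfl | rfl | hk3
        · norm_num at hr
        · norm_num at hr
        · have h27 : 27 ≤ 3 ^ k := Nat.pow_le_pow_right (by norm_num : 1 ≤ 3) hk3
          have h729 : 729 ≤ (3 ^ k) ^ 2 := Nat.pow_le_pow_left h27 2
          have := Nat.mul_le_mul h27 (show 728 ≤ (3 ^ k) ^ 2 - 1 by omega)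
          omega

end CfsgLib.SL2Dickson
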