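import Mathlib
import Cfsg.Agent.Lib.SL2.PGLMax

/-! The maximal subgroups of `PGL₂` not containing `PSL₂`: `S₄` and subfield groups. -/

set_option autoImplicit false
set_option linter.style.haveILetI false

namespace CfsgLib.SL2Dickson

open Matrix CfsgLib.SL2Torus
open CfsgLib.PSL2Klein (π π_surj π_eq π_eq_one x₀)
open CfsgLib.PSL2Two renaming J → Jq
open Classical

variable {F : Type*} [Field F] [Fintype F]

local notation "L" => Matrix.SpecialLinearGroup (Fin 2) F
local notation "PL" => Matrix.ProjectiveSpecialLinearGroup (Fin 2) F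
local notation "PG" => Matrix.ProjGenLinGroup (Fin 2) F
local notation "M2" => Matrix (Fin 2) (Fin 2) F

variable {M : Subgroup (Matrix.ProjGenLinGroup (Fin 2) F)}

theorem Outer.a4_iso (hodd : Fintype.card F % 2 = 1) (hM : Outer M) (h : A4Case (M.comap inc)) :
    Nonempty (M ≃* Equiv.Perm (Fin 4)) := by
  have hc := hM.card_odd hodd
  rw [exceptional_card.1 h] at hc
  have hcyc := hasCycle_alt4 (Or.inl h.1)
  have hnp := pow_eq_of_semi h.2
  rw [exceptional_card.1 h] at hnp
  haveI := ringChar.charP F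
  obtain ⟨m, hp, -⟩ := FiniteField.card F (ringChar F)
  have hp3 := ringChar_odd hodd
  rcases Outer.cases hodd (M := M) with h' | ⟨h', -⟩ | ⟨h', -⟩ | ⟨-, h'⟩ | ⟨h', -⟩ | ⟨h', -⟩
  · exact absurd (fun a ha b hb => inc_injective (by rw [map_mul, map_mul]; exact h' _ ha _ hb)) (hasCycle_noncomm hcyc)
  · exact absurd hcyc h'
  · omega
  · exact h'
  · omega
  · rw [hc] at h'
    exact absurd ((Nat.Prime.dvd_mul hp).1 h' |>.resolve_left fun h2 => by have := Nat.le_of_dvd two_pos h2; omega) hnp

theorem Outer.a4_klein (hodd : Fintype.card F % 2 = 1) (h5 : 5 ≤ Fintype.card F) (hM : Outer M)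
    (h : A4Case (M.comap inc)) : ∃ V : Subgroup PL, IsKleinFour V ∧
      M.comap inc = Subgroup.normalizer (V : Set PL) ∧
      M = Subgroup.normalizer ((V.map inc : Subgroup PG) : Set PG) := by
  obtain ⟨e⟩ := h.1
  obtain ⟨h4, hle, -⟩ := fourS4_facts
  set W := fourS4.subgroupOf (alternatingGroup (Fin 4))
  set f : alternatingGroup (Fin 4) →* PL := (M.comap inc).subtype.comp e.symm.toMonoidHom with hf
  have hfi : Function.Injective f := (M.comap inc).subtype_injective.comp e.symm.injective
  have hV : IsKleinFour (W.map f) := klein_mk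
    (by rw [Subgroup.card_map_of_injective hfi, Nat.card_congr (Subgroup.subgroupOfEquivOfLe hle).toEquiv, h4])
    (by rintro _ ⟨w, hw, rfl⟩; rw [← map_mul, show w * w = 1 from Subtype.ext hw.1, map_one])
  have hmem : ∀ x, x ∈ W.map f ↔ x ∈ M.comap inc ∧ x * x = 1 := by
    intro x
    constructor
    · rintro ⟨w, hw, rfl⟩
      exact ⟨(e.symm w).2, by rw [← map_mul, show w * w = 1 from Subtype.ext hw.1, map_one]⟩
    · rintro ⟨hx, hxx⟩
      refine ⟨e ⟨x, hx⟩, ⟨?_, (e ⟨x, hx⟩).2⟩, by simp [hf]⟩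
      have : e ⟨x, hx⟩ * e ⟨x, hx⟩ = 1 := by
        rw [← map_mul, show (⟨x, hx⟩ : M.comap inc) * ⟨x, hx⟩ = 1 from Subtype.ext hxx, map_one]
      exact congrArg Subtype.val this
  obtain ⟨hMN, hH⟩ := hM.eq_normalizer (by omega) (S := W.map f)
    (fun e' => by have := hV.card_four; rw [e', Subgroup.card_bot] at this; omega)
    (fun e' => by
      have := hV.card_four
      rw [e', Subgroup.card_top] at this
      have := card_PL_ge (F := F) hodd h5
      omega)
    (fun P hP x hx => by
      obtain ⟨h1, h2⟩ := (hmem x).1 hx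
      exact (hmem _).2 ⟨Outer.inv hP h1, by rw [← map_mul, h2, map_one]⟩)
  exact ⟨_, hV, hH, hMN⟩

/-- the element `1 + J` -/
theorem exists_outer_stdV (K : Subfield F) (hodd : Fintype.card F % 2 = 1)
    (h8 : Fintype.card F % 8 = 3 ∨ Fintype.card F % 8 = 5) {a b : F} (hab : a ^ 2 + b ^ 2 = -1) :
    ∃ w : PG, w ∈ glRange K ∧ w ∉ (inc (F := F)).range ∧
      w ∈ Subgroup.normalizer (((stdV a b hab).map inc : Subgroup PG) : Set PG) := by
  haveI := finite_PG (F := F)
  have h2 : (2 : F) ≠ 0 := CfsgLib.SL2Torus.two_ne_of_odd hodd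
  have h2K : (2 : K) ≠ 0 := fun e => h2 (by have := map_ofNat K.subtype 2; rw [e, map_zero] at this; exact this.symm)
  set PK : GL (Fin 2) K := Matrix.GeneralLinearGroup.mkOfDetNeZero !![(1 : K), -1; 1, 1]
    (by rw [Matrix.det_fin_two_of]; norm_num; exact h2K) with hPK
  set P : GL (Fin 2) F := Matrix.GeneralLinearGroup.map K.subtype PK with hP
  have hPe : (P : M2) = !![1, -1; 1, 1] := by
    ext i j
    fin_cases i <;> fin_cases j <;> simp [hP, hPK]
  refine ⟨Matrix.ProjGenLinGroup.mk P, ⟨Matrix.ProjGenLinGroup.mk PK, rfl⟩, ?_, ?_⟩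
  · rintro ⟨x, hx⟩
    obtain ⟨g, rfl⟩ := π_surj x
    rw [inc_π] at hx
    obtain ⟨u, hu⟩ := Matrix.ProjGenLinGroup.mk_eq_mk_iff.1 hx
    have hd : (P : M2).det = (u : F) * u := by
      rw [← hu, Units.val_mul, Matrix.det_mul]
      show g.1.det * _ = _
      rw [g.2, one_mul, Matrix.GeneralLinearGroup.coe_scalar, Matrix.det_fin_two]
      simp
    rw [hPe, Matrix.det_fin_two_of] at hd
    have : IsSquare (2 : F) := ⟨u, by linear_combination hd⟩
    rw [FiniteField.isSquare_two_iff] at this
    omega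
  · refine mem_normalizer_of_conj ?_
    rintro _ ⟨x, hx, rfl⟩
    refine ⟨glConj P x, ?_, (conj_inc P x).symm⟩
    obtain ⟨-, hx0, hy0, -⟩ := stdV_isKlein hodd hab
    have hle : (stdV a b hab).map (glConj P).toMonoidHom ≤ stdV a b hab := by
      conv_lhs => rw [stdV]
      rw [MonoidHom.map_closure, Subgroup.closure_le, Set.image_pair]
      rintro _ (rfl | rfl)
      · show glConj P (π Jq) ∈ _
        rw [glConj_π_eq P (g' := Jq) (by
          rw [hPe]; ext i j; fin_cases i <;> fin_cases j <;> simp [Matrix.mul_apply, Fin.sum_univ_two, Jq])]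
        exact hx0
      · show glConj P (π (stdH a b hab)) ∈ _
        rw [glConj_π_eq P (g' := stdH a b hab * Jq⁻¹) (by
          rw [hPe, Matrix.SpecialLinearGroup.coe_mul, Matrix.SpecialLinearGroup.coe_inv]
          ext i j; fin_cases i <;> fin_cases j <;>
            simp [Matrix.mul_apply, Fin.sum_univ_two, Jq, stdH, Matrix.adjugate_fin_two] <;> ring), map_mul, map_inv]
        exact mul_mem hy0 (inv_mem hx0)
    exact hle ⟨x, hx, rfl⟩

theorem Outer.a4_prime (hodd : Fintype.card F % 2 = 1) (h5 : 5 ≤ Fintype.card F) (hM : Outer M)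
    (h : A4Case (M.comap inc)) :
    (Fintype.card F).Prime ∧ (Fintype.card F % 8 = 3 ∨ Fintype.card F % 8 = 5) := by
  obtain ⟨V, hV, hH, hMN⟩ := hM.a4_klein hodd h5 h
  have h12 := exceptional_card.1 h
  have hnp := pow_eq_of_semi h.2
  rw [h12] at hnp
  have hN12 : Nat.card (Subgroup.normalizer (V : Set PL)) = 12 := hH ▸ h12
  have h8 : Fintype.card F % 8 = 3 ∨ Fintype.card F % 8 = 5 := by
    rcases klein_card hodd hV with ⟨h8, -⟩ | ⟨-, h24⟩
    · exact h8
    · omega
  refine ⟨?_, h8⟩
  haveI := ringChar.charP F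
  obtain ⟨n, hp, hq⟩ := FiniteField.card F (ringChar F)
  have hp5 : 5 ≤ ringChar F := by
    have h3 := ringChar_odd hodd
    by_contra hlt
    rcases (show ringChar F = 3 ∨ ringChar F = 4 by omega) with e | e
    · exact hnp (by rw [e]; norm_num)
    · rw [e] at hp; norm_num at hp
  have hn : Odd (n : ℕ) := by
    rw [← Nat.not_even_iff_odd]
    rintro ⟨i, hi⟩
    have hp2 : ringChar F % 2 = 1 := hp.eq_two_or_odd.resolve_left (by omega)
    have hsq : ringChar F ^ 2 % 8 = 1 := by
      rw [Nat.pow_mod]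
      rcases (show ringChar F % 8 = 1 ∨ ringChar F % 8 = 3 ∨ ringChar F % 8 = 5 ∨ ringChar F % 8 = 7 by omega) with
        e | e | e | e <;> rw [e]
    rw [hq, hi, ← two_mul, pow_mul, Nat.pow_mod, hsq, one_pow] at h8
    omega
  obtain ⟨K, hK⟩ := prime_field F
  have hmK : Nat.card K ^ (n : ℕ) = Fintype.card F := by rw [hK, hq]
  by_cases hKtop : K = ⊤
  · subst hKtop
    rw [Nat.card_congr Subfield.topEquiv.toEquiv, Nat.card_eq_fintype_card] at hK
    rwa [hK]
  exfalso
  obtain ⟨a, b, ha, hb, hab⟩ := exists_std K hodd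
  obtain ⟨g, P, hgP⟩ := klein_transitive_gl hodd hab hV
  set θ := (MulAut.conj g).trans (glConj P)
  set Θ := MulAut.conj (Matrix.ProjGenLinGroup.mk P * inc g)
  have hl : Lifts θ Θ := lift_glConj g P
  obtain ⟨hM1, hH1⟩ := hM.map Θ hl
  rw [hH, Subgroup.map_equiv_normalizer_eq, hgP] at hH1
  have hM1N : M.map Θ.toMonoidHom = Subgroup.normalizer (((stdV a b hab).map inc : Subgroup PG) : Set PG) := by
    rw [hMN, Subgroup.map_equiv_normalizer_eq, ← hgP]
    congr 2
    rw [Subgroup.map_map, Subgroup.map_map]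
    congr 1
    ext x
    exact hl x
  obtain ⟨w, hwK, hwL, hwN⟩ := exists_outer_stdV K hodd h8 hab
  haveI := finite_PG (F := F)
  set M1 := M.map Θ.toMonoidHom
  have hsmall : (Subgroup.normalizer (stdV a b hab : Set PL)).map inc ≤ M1 ⊓ glRange K := by
    rintro _ ⟨x, hx, rfl⟩
    refine ⟨show x ∈ M1.comap inc from hH1.symm ▸ hx, inc_pslSub_le K ⟨x, ?_, rfl⟩⟩
    rw [← pglSub_eq_pslSub hodd hmK hn]
    exact normalizer_stdV_le hodd ha hb hab hx
  have hcard1 : Nat.card M1 = 24 := by
    have e : Nat.card M1 = Nat.card M := Subgroup.card_map_of_injective Θ.injective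
    rw [e, hM.card_odd hodd, h12]
  have hleM : M1 ≤ glRange K := by
    have hlt : (Subgroup.normalizer (stdV a b hab : Set PL)).map inc < M1 ⊓ glRange K := by
      refine lt_of_le_of_ne hsmall fun e => hwL ?_
      obtain ⟨x, -, hx⟩ := e ▸ (show w ∈ M1 ⊓ glRange K from ⟨hM1N ▸ hwN, hwK⟩)
      exact ⟨x, hx⟩
    have hc12 : Nat.card ((Subgroup.normalizer (stdV a b hab : Set PL)).map inc) = 12 := by
      rw [Subgroup.card_map_of_injective inc_injective, ← hgP, ← Subgroup.map_equiv_normalizer_eq,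
        Subgroup.card_map_of_injective θ.injective, hN12]
    have hd := Subgroup.card_dvd_of_le hlt.le
    have hlt' : 12 < Nat.card ↥(M1 ⊓ glRange K) := by
      by_contra hle
      exact hlt.ne (Subgroup.eq_of_le_of_card_ge hlt.le (by omega))
    have hd2 := Subgroup.card_dvd_of_le (inf_le_left : M1 ⊓ glRange K ≤ M1)
    rw [hc12] at hd
    rw [hcard1] at hd2
    have := Nat.le_of_dvd (by norm_num) hd2
    have he : M1 ⊓ glRange K = M1 := Subgroup.eq_of_le_of_card_ge inf_le_left (by omega)
    exact he ▸ inf_le_right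
  have hbig : 60 ≤ Nat.card (pslSub K) := by
    have h1 := (pgl_prime_card hK hodd hp5).1
    rwa [pglSub_eq_pslSub hodd hmK hn] at h1
  have hne : glRange K ≠ ⊤ := by
    intro e
    have hc := card_glRange K
    rw [e, Subgroup.card_top, card_PG] at hc
    rcases lt_or_eq_of_le (show Nat.card K ≤ Fintype.card F by
      rw [← hmK]; exact Nat.le_self_pow n.ne_zero _) with h | h
    · rcases cube_lt h with h' | h' <;> omega
    · exact hKtop (subfield_eq_top h)
  have e := coatom_eq hM1.1 hleM hne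
  have hc := card_glRange K
  rw [← e, hcard1] at hc
  have hc2 := card_pslSub K
  rw [← hc] at hc2
  have := Nat.le_of_dvd (by norm_num) (Dvd.intro_left _ hc2)
  omega

theorem Outer.field (hodd : Fintype.card F % 2 = 1) (hM : Outer M) (h5 : 5 ≤ Fintype.card F)
    (h : FieldCase' (M.comap inc)) : ∃ (θ : PL ≃* PL) (K : Subfield F) (j : ℕ), j.Prime ∧ Odd j ∧
      Nat.card K ^ j = Fintype.card F ∧ (M.comap inc).map θ.toMonoidHom = pslSub K ∧ Nonempty (M ≃* glRange K) := by
  obtain ⟨z, c, K, hK⟩ := h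
  obtain ⟨Θ, hΘ⟩ := lift_scale z c
  set θ := (MulAut.conj z).trans (scale c)
  obtain ⟨hM1, hH1⟩ := hM.map Θ hΘ
  set M1 := M.map Θ.toMonoidHom with hM1d
  obtain ⟨j, hj1, hj⟩ := exists_pow_card K
  have hpar := parity_eq (by omega) hj
  have hK3 : 3 ≤ Nat.card K := by have := subfield_two_le K; omega
  have hKne : K ≠ ⊤ := by
    rintro rfl
    apply hM1.comap_ne_top
    rw [hH1]
    rcases hK with e | ⟨e, -, -⟩
    · rw [e, pslSub_top]
    · rw [e]
      exact top_le_iff.1 (pslSub_top.symm.le.trans (pslSub_le_pglSub _))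
  have hc1 := hM1.card_odd hodd
  rcases hK with e | ⟨e, -, hcard⟩
  · rw [e] at hH1
    have hcK := card_pslSub K
    rw [(gcd_sub_one (Nat.card_pos (α := K))).1 (by omega), ← hH1, ← hc1] at hcK
    obtain ⟨hMN, hHN⟩ := hM1.eq_normalizer (by omega) (S := pslSub K)
      (fun e' => by
        have h2 := card_pslSub K
        rw [e', Subgroup.card_bot, mul_one] at h2
        have := Nat.le_of_dvd two_pos (dvd_trans (dvd_of_eq h2.symm) (Nat.gcd_dvd_left _ _))
        have h9 : 9 ≤ Nat.card K ^ 2 := Nat.pow_le_pow_left hK3 2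
        have := Nat.mul_le_mul hK3 (show 8 ≤ Nat.card K ^ 2 - 1 by omega)
        omega)
      (pslSub_ne_top hKne)
      (fun P hP x hx => by rw [← hH1] at hx ⊢; exact Outer.inv hP hx)
    have hjo : Odd j := by
      rw [← Nat.not_even_iff_odd]
      intro hev
      have hfull := pglSub_card_of_squares (K := K) fun k hk => isSquare_of_even hodd hj hev hk
      have hidx : ((pslSub K).subgroupOf (pglSub K)).index = 2 := by
        have h1 := Subgroup.card_mul_index ((pslSub K).subgroupOf (pglSub K))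
        rw [Nat.card_congr (Subgroup.subgroupOfEquivOfLe (pslSub_le_pglSub K)).toEquiv, hfull] at h1
        have h2 := card_pslSub K
        rw [(gcd_sub_one (Nat.card_pos (α := K))).1 (by omega), ← h1, mul_comm 2] at h2
        exact (Nat.eq_of_mul_eq_mul_left Nat.card_pos h2).symm
      haveI := Subgroup.normal_of_index_eq_two hidx
      have hle : pglSub K ≤ Subgroup.normalizer (pslSub K : Set PL) := fun x hx => mem_normalizer_of_conj fun v hv => by
        have := Subgroup.Normal.conj_mem ‹((pslSub K).subgroupOf (pglSub K)).Normal› ⟨v, pslSub_le_pglSub K hv⟩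
          (Subgroup.mem_subgroupOf.2 hv) ⟨x, hx⟩
        exact Subgroup.mem_subgroupOf.1 this
      have h3 := Subgroup.card_le_of_le hle
      rw [← hHN, hH1, hfull] at h3
      rw [hH1] at hc1
      have : 0 < Nat.card (pslSub K) := Nat.card_pos
      omega
    have hgl : glRange K ≤ M1 := hMN ▸ glRange_normalizes K
    haveI := finite_PG (F := F)
    have heq : glRange K = M1 := Subgroup.eq_of_le_of_card_ge hgl (le_of_eq (by rw [card_glRange, hcK]))
    have hjp : j.Prime := by
      by_contra hjp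
      have hj2 : 2 ≤ j := by
        by_contra hlt
        obtain rfl : j = 1 := by omega
        exact hKne (subfield_eq_top (by rw [← hj, pow_one]))
      obtain ⟨a, ⟨a', ha⟩, ha2, haj⟩ := Nat.exists_dvd_of_not_prime2 hj2 hjp
      obtain ⟨K', hK'⟩ := exists_subfield (F := F) (q₀ := Nat.card K ^ a) (m := a')
        (le_trans (by omega) (Nat.le_self_pow (by omega) _)) (by rw [← pow_mul, ← ha, hj])
      have hne' : glRange K' ≠ ⊤ := by
        intro e'
        have hc := card_glRange K'
        rw [e', Subgroup.card_top, card_PG] at hc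
        have hlt : Nat.card K' < Fintype.card F := by
          rw [hK', ← hj]; exact Nat.pow_lt_pow_right (by omega) haj
        rcases cube_lt hlt with h' | h' <;> omega
      have e2 := coatom_eq hM1.1 (heq ▸ glRange_mono (subfield_le_of_pow hK')) hne'
      have c1 := card_glRange K'
      rw [← e2, ← heq, card_glRange] at c1
      have hlt : Nat.card K < Nat.card K' := by
        rw [hK']; exact lt_of_eq_of_lt (pow_one _).symm (Nat.pow_lt_pow_right (by omega) ha2)
      rcases cube_lt hlt with h' | h' <;> omega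
    exact ⟨θ, K, j, hjp, hjo, hj, e, ⟨(M.equivMapOfInjective _ Θ.injective).trans (MulEquiv.subgroupCongr heq.symm)⟩⟩
  · exfalso
    rw [e] at hH1
    rw [hH1, hcard] at hc1
    have hcyc : HasCycle (M1.comap inc) := hH1 ▸ (hasCycle_pslSub (F := F) (K := K) (by omega)).mono (pslSub_le_pglSub K)
    obtain ⟨k, hk, hkK⟩ := subfield_pow K
    have h9 : 9 ≤ Nat.card K ^ 2 := Nat.pow_le_pow_left hK3 2
    have h24 := Nat.mul_le_mul hK3 (show 8 ≤ Nat.card K ^ 2 - 1 by omega)
    rcases Outer.cases hodd (M := M1) with h' | ⟨h', -⟩ | ⟨h', -⟩ | ⟨h', -⟩ | ⟨h', -⟩ | ⟨-, h'⟩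
    · exact hasCycle_noncomm hcyc fun a ha b hb => inc_injective (by rw [map_mul, map_mul]; exact h' _ ha _ hb)
    · exact h' hcyc
    · omega
    · omega
    · rcases (show Nat.card K = 3 ∨ 5 ≤ Nat.card K by omega) with e3 | e5
      · rw [e3] at hc1; norm_num at hc1; omega
      · have h25 : 25 ≤ Nat.card K ^ 2 := Nat.pow_le_pow_left e5 2
        have := Nat.mul_le_mul e5 (show 24 ≤ Nat.card K ^ 2 - 1 by omega)
        omega
    · rcases h' with h' | ⟨r, ⟨i, hi, rfl⟩, hr | hr⟩
      · exact h' hcyc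
      · exact no_gap (ringChar_odd hodd) hk le_rfl (by norm_num) (hkK ▸ (hr.symm.trans hc1))
      · refine no_gap (ringChar_odd hodd) hk (c := 4) (by norm_num) le_rfl (j := i) ?_
        rw [← hkK]
        omega

end CfsgLib.SL2Dickson
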